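import Mathlib.Analysis.Complex.CauchyIntegral
import Mathlib.Analysis.Analytic.IsolatedZeros
import Mathlib.RingTheory.Ideal.GoingUp
import Mathlib.LinearAlgebra.Matrix.ToLinearEquiv
import Mathlib.FieldTheory.IsAlgClosed.Basic
import Mathlib.Analysis.Complex.Polynomial.Basic

/-!
# Germs of holomorphic functions of several variables, without quotients

`holRing n` is the subring of all functions `ℂⁿ → ℂ` which are complex differentiable near `0`;
`nul n` is the ideal of the functions which vanish near `0`.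
-/

set_option autoImplicit false

open Filter Topology

namespace Groth.Agent.Gaga.H178.HolRing

/-- `f` is complex differentiable at all points near `a`. -/
def HolAt {E : Type*} [NormedAddCommGroup E] [NormedSpace ℂ E] (f : E → ℂ) (a : E) : Prop :=
  ∀ᶠ z in 𝓝 a, DifferentiableAt ℂ f z

section
variable {E F : Type*} [NormedAddCommGroup E] [NormedSpace ℂ E] [NormedAddCommGroup F]
  [NormedSpace ℂ F] {f g : E → ℂ} {a : E}

theorem HolAt.add (hf : HolAt f a) (hg : HolAt g a) : HolAt (f + g) a := by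
  filter_upwards [hf, hg] with z h1 h2 using h1.add h2

theorem HolAt.mul (hf : HolAt f a) (hg : HolAt g a) : HolAt (f * g) a := by
  filter_upwards [hf, hg] with z h1 h2 using h1.mul h2

theorem HolAt.neg (hf : HolAt f a) : HolAt (-f) a := by
  filter_upwards [hf] with z h1 using h1.neg

theorem HolAt.sub (hf : HolAt f a) (hg : HolAt g a) : HolAt (f - g) a := by
  filter_upwards [hf, hg] with z h1 h2 using h1.sub h2

theorem HolAt.const (c : ℂ) : HolAt (fun _ : E => c) a :=
  Eventually.of_forall fun _ => differentiableAt_const c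

theorem HolAt.of_differentiable (hf : Differentiable ℂ f) : HolAt f a :=
  Eventually.of_forall fun z => hf z

theorem HolAt.continuousAt (hf : HolAt f a) : ContinuousAt f a :=
  (hf.self_of_nhds).continuousAt

theorem HolAt.comp {φ : F → E} {b : F} (hf : HolAt f (φ b)) (hφ : Differentiable ℂ φ) :
    HolAt (f ∘ φ) b := by
  have h1 : Tendsto φ (𝓝 b) (𝓝 (φ b)) := (hφ b).continuousAt
  filter_upwards [h1.eventually hf] with z hz using hz.comp z (hφ z)

theorem HolAt.congr (hf : HolAt f a) (h : f =ᶠ[𝓝 a] g) : HolAt g a := by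
  have h2 := (hf.and h).eventually_nhds
  filter_upwards [h.eventually_nhds, hf] with z hz h3
  exact h3.congr_of_eventuallyEq (Eventually.mono hz fun _ h => h.symm)

theorem HolAt.of_differentiableOn {U : Set E} (hf : DifferentiableOn ℂ f U) (hU : U ∈ 𝓝 a) :
    HolAt f a := by
  filter_upwards [eventually_mem_nhds_iff.2 hU] with z hz
  exact hf.differentiableAt hz
end

/-- Functions on `ℂⁿ` complex differentiable near `0`. -/
def holRing (n : ℕ) : Subring ((Fin n → ℂ) → ℂ) where
  carrier := {f | HolAt f 0}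
  mul_mem' hf hg := hf.mul hg
  one_mem' := HolAt.const 1
  add_mem' hf hg := hf.add hg
  zero_mem' := HolAt.const 0
  neg_mem' hf := hf.neg

/-- The ideal of the functions vanishing near `0`. -/
def nul (n : ℕ) : Ideal (holRing n) where
  carrier := {f | ∀ᶠ z in 𝓝 (0 : Fin n → ℂ), f.1 z = 0}
  add_mem' := by
    intro f g hf hg
    filter_upwards [hf, hg] with z h1 h2
    show f.1 z + g.1 z = 0
    rw [h1, h2, add_zero]
  zero_mem' := Eventually.of_forall fun _ => rfl
  smul_mem' := by
    intro c f hf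
    filter_upwards [hf] with z h1
    show c.1 z * f.1 z = 0
    rw [h1, mul_zero]

theorem mem_nul {n : ℕ} {f : holRing n} : f ∈ nul n ↔ ∀ᶠ z in 𝓝 (0 : Fin n → ℂ), f.1 z = 0 :=
  Iff.rfl

/-- Evaluation at a point (any point: elements are honest functions). -/
def ev {n : ℕ} (z : Fin n → ℂ) : holRing n →+* ℂ :=
  (Pi.evalRingHom (fun _ : Fin n → ℂ => ℂ) z).comp (holRing n).subtype

@[simp] theorem ev_apply {n : ℕ} (z : Fin n → ℂ) (f : holRing n) : ev z f = f.1 z := rfl

theorem differentiable_tail (n : ℕ) :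
    Differentiable ℂ (fun z : Fin (n + 1) → ℂ => (Fin.tail z : Fin n → ℂ)) := by
  rw [differentiable_pi]
  intro i
  exact differentiable_apply (𝕜 := ℂ) (Fin.succ i)

/-- Pull back along `ℂⁿ⁺¹ → ℂⁿ`, forget the variable `0`. -/
def ι (n : ℕ) : holRing n →+* holRing (n + 1) where
  toFun f := ⟨fun z => f.1 (Fin.tail z), HolAt.comp (φ := fun z : Fin (n + 1) → ℂ =>
    (Fin.tail z : Fin n → ℂ)) (b := 0) f.2 (differentiable_tail n)⟩
  map_one' := rfl
  map_mul' _ _ := rfl
  map_zero' := rfl
  map_add' _ _ := rfl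

@[simp] theorem ι_apply {n : ℕ} (f : holRing n) (z : Fin (n + 1) → ℂ) :
    (ι n f).1 z = f.1 (Fin.tail z) := rfl

/-- The coordinate `z ↦ z 0`. -/
def X0 (n : ℕ) : holRing (n + 1) :=
  ⟨fun z => z 0, HolAt.of_differentiable (differentiable_apply (𝕜 := ℂ) 0)⟩

/-- Polynomials in `z 0` with coefficients in the functions of the other variables. -/
noncomputable def φ (n : ℕ) : Polynomial (holRing n) →+* holRing (n + 1) :=
  Polynomial.eval₂RingHom (ι n) (X0 n)

theorem φ_C {n : ℕ} (a : holRing n) : φ n (Polynomial.C a) = ι n a := by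
  simp [φ]

theorem φ_X {n : ℕ} : φ n Polynomial.X = X0 n := by
  simp [φ]

theorem φ_apply {n : ℕ} (p : Polynomial (holRing n)) (z : Fin (n + 1) → ℂ) :
    (φ n p).1 z = (p.map (ev (Fin.tail z))).eval (z 0) := by
  have h : (ev z).comp (φ n) = (Polynomial.evalRingHom (z 0)).comp
      (Polynomial.mapRingHom (ev (Fin.tail z))) := by
    apply Polynomial.ringHom_ext
    · intro a
      simp [φ_C]
    · simp only [RingHom.comp_apply, φ_X, ev_apply]
      simp [X0]
  have h2 := DFunLike.congr_fun h p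
  simpa using h2

theorem ι_nul {n : ℕ} {f : holRing n} (hf : f ∈ nul n) : ι n f ∈ nul (n + 1) := by
  have h1 : Tendsto (fun z : Fin (n + 1) → ℂ => (Fin.tail z : Fin n → ℂ)) (𝓝 0) (𝓝 0) := by
    have := (differentiable_tail n 0).continuousAt
    exact this
  exact h1.eventually hf

/-- Weierstrass division, the analytic input. -/
def WD (n : ℕ) : Prop :=
  ∀ (m : ℕ) (G : (Fin (n + 1) → ℂ) → ℂ), HolAt G 0 → ∀ u : ℂ → ℂ, AnalyticAt ℂ u 0 → u 0 ≠ 0 →
    (∀ᶠ t in 𝓝 (0 : ℂ), G (Fin.cons t 0) = t ^ m * u t) →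
    ∀ F : (Fin (n + 1) → ℂ) → ℂ, HolAt F 0 → ∃ Q : (Fin (n + 1) → ℂ) → ℂ, HolAt Q 0 ∧
      ∃ r : Fin m → (Fin n → ℂ) → ℂ, (∀ i, HolAt (r i) 0) ∧
        ∀ᶠ z in 𝓝 (0 : Fin (n + 1) → ℂ),
          F z = Q z * G z + ∑ i, r i (Fin.tail z) * z 0 ^ (i : ℕ)

end Groth.Agent.Gaga.H178.HolRing
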