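import Mathlib.RingTheory.Ideal.GoingUp
import Mathlib.LinearAlgebra.Matrix.ToLinearEquiv
import Mathlib.FieldTheory.IsAlgClosed.Basic
import Mathlib.LinearAlgebra.Dimension.Constructions
import Mathlib.LinearAlgebra.Dimension.RankNullity
import Mathlib.LinearAlgebra.Matrix.NonsingularInverse

/-!
# Elimination by minors
-/

set_option autoImplicit false

open Polynomial

namespace Groth.Agent.Gaga.H178.LinAlg

theorem exists_det_ne_zero {K : Type*} [Field K] {m : ℕ} {J : Type*} (M : J → Fin m → K)
    (h : Submodule.span K (Set.range M) = ⊤) :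
    ∃ σ : Fin m → J, (Matrix.of fun a k => M (σ a) k).det ≠ 0 := by
  obtain ⟨b, hb, hspan, hli⟩ := exists_linearIndependent K (Set.range M)
  rw [h] at hspan
  have hfin : Finite b := hli.finite
  have := Fintype.ofFinite b
  have hcard : Fintype.card b = m := by
    have hB := Module.finrank_eq_card_basis (Module.Basis.mk hli (by rw [Subtype.range_coe, hspan]))
    rw [Module.finrank_fin_fun] at hB
    exact hB.symm
  let e : Fin m ≃ b := (Fintype.equivFinOfCardEq hcard).symm
  have hσ : ∀ a : Fin m, ∃ j, M j = (e a : Fin m → K) := fun a => hb (e a).2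
  choose σ hσ using hσ
  refine ⟨σ, ?_⟩
  have h1 : LinearIndependent K (fun a : Fin m => (Matrix.of fun a k => M (σ a) k : Matrix (Fin m) (Fin m) K) a) := by
    have h2 := hli.comp e e.injective
    have h3 : (fun a : Fin m => (Matrix.of fun a k => M (σ a) k : Matrix (Fin m) (Fin m) K) a)
        = (Subtype.val : b → Fin m → K) ∘ e := by
      funext a
      exact hσ a
    rw [h3]
    exact h2
  have h4 := Matrix.linearIndependent_rows_iff_isUnit.1 h1
  exact ((Matrix.isUnit_iff_isUnit_det _).1 h4).ne_zero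

/-- The matrix entries: coefficients of `X ^ i * R j` modulo `w`. -/
noncomputable def row {A : Type*} [CommRing A] {J : Type*} {m : ℕ} (w : A[X]) (R : J → A[X])
    (x : J × Fin m) (k : Fin m) : A :=
  ((X ^ (x.2 : ℕ) * R x.1) %ₘ w).coeff k

theorem row_map {A B : Type*} [CommRing A] [CommRing B] {J : Type*} {m : ℕ} {w : A[X]}
    (hw : w.Monic) (R : J → A[X]) (f : A →+* B) (x : J × Fin m) (k : Fin m) :
    f (row w R x k) = row (w.map f) (fun j => (R j).map f) x k := by
  unfold row
  rw [← Polynomial.coeff_map, Polynomial.map_modByMonic f hw, Polynomial.map_mul,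
    Polynomial.map_pow, Polynomial.map_X]

theorem exists_common_root {K : Type*} [Field K] [IsAlgClosed K] {m : ℕ} {J : Type*}
    (w : K[X]) (hw : w.Monic) (hm : w.natDegree = m) (R : J → K[X])
    (h : ∀ σ : Fin m → J × Fin m, (Matrix.of fun a k => row w R (σ a) k).det = 0) :
    ∃ ζ, w.eval ζ = 0 ∧ ∀ j, (R j).eval ζ = 0 := by
  -- the linear map `q ↦` coefficients of `q %ₘ w`
  let Φ : K[X] →ₗ[K] (Fin m → K) :=
    { toFun := fun q k => (q %ₘ w).coeff k
      map_add' := by
        intro p q
        funext k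
        simp [Polynomial.add_modByMonic]
      map_smul' := by
        intro c q
        funext k
        simp [Polynomial.smul_modByMonic] }
  have hΦ : ∀ q, Φ q = fun k : Fin m => (q %ₘ w).coeff k := fun _ => rfl
  have hmod : ∀ p q : K[X], (p %ₘ w * q) %ₘ w = (p * q) %ₘ w := by
    intro p q
    have h1 : p * q = p %ₘ w * q + w * (p /ₘ w * q) := by
      conv_lhs => rw [← Polynomial.modByMonic_add_div p w]
      ring
    rw [h1, Polynomial.add_modByMonic, Polynomial.self_mul_modByMonic hw, add_zero]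
  let V : Submodule K (Fin m → K) := Submodule.span K (Set.range (row (m := m) w R))
  have hV : V ≠ ⊤ := by
    intro hV
    obtain ⟨σ, hσ⟩ := exists_det_ne_zero _ hV
    exact hσ (h σ)
  -- products `q * R j` land in `V`
  have hmem1 : ∀ (j : J) (q : K[X]), Φ (q * R j) ∈ V := by
    intro j q
    have h1 : Φ (q * R j) = Φ ((q %ₘ w) * R j) := by
      rw [hΦ, hΦ, hmod]
    rw [h1]
    have h2 : (q %ₘ w) = ∑ i : Fin m, C ((q %ₘ w).coeff i) * X ^ (i : ℕ) := by
      by_cases hw1 : w = 1
      · have : m = 0 := by rw [← hm, hw1, Polynomial.natDegree_one]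
        subst this
        simp [hw1]
      · have h3 : (q %ₘ w).natDegree < m := by
          rw [← hm]
          exact Polynomial.natDegree_modByMonic_lt q hw hw1
        rw [Fin.sum_univ_eq_sum_range (fun i => C ((q %ₘ w).coeff i) * X ^ i) m]
        exact Polynomial.as_sum_range_C_mul_X_pow' _ h3
    have h4 : Φ ((q %ₘ w) * R j) = ∑ i : Fin m, (q %ₘ w).coeff i • row (m := m) w R (j, i) := by
      conv_lhs => rw [h2]
      rw [Finset.sum_mul, map_sum]
      refine Finset.sum_congr rfl fun i _ => ?_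
      rw [mul_assoc, ← Polynomial.smul_eq_C_mul, map_smul]
      rfl
    rw [h4]
    exact V.sum_mem fun i _ => V.smul_mem _ (Submodule.subset_span ⟨(j, i), rfl⟩)
  let 𝔞 : Ideal K[X] := Ideal.span ({w} ∪ Set.range R)
  have hmem2 : ∀ q ∈ 𝔞, Φ q ∈ V := by
    intro q hq
    refine Submodule.span_induction (p := fun q _ => ∀ c : K[X], Φ (c * q) ∈ V) ?_ ?_ ?_ ?_ hq 1
      |> fun h => by simpa using h
    · rintro x (hx | ⟨j, rfl⟩) c
      · rw [Set.mem_singleton_iff] at hx
        subst hx
        have : Φ (c * x) = 0 := by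
          rw [hΦ, mul_comm, Polynomial.self_mul_modByMonic hw]
          rfl
        rw [this]
        exact V.zero_mem
      · exact hmem1 j c
    · intro c
      rw [mul_zero, map_zero]
      exact V.zero_mem
    · intro x y _ _ hx hy c
      rw [mul_add, map_add]
      exact V.add_mem (hx c) (hy c)
    · intro a x _ hx c
      rw [smul_eq_mul, ← mul_assoc]
      exact hx (c * a)
  have htop : 𝔞 ≠ ⊤ := by
    intro h𝔞
    apply hV
    rw [eq_top_iff]
    intro v _
    have hw' : (∑ i : Fin m, C (v i) * X ^ (i : ℕ) : K[X]) %ₘ w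
        = ∑ i : Fin m, C (v i) * X ^ (i : ℕ) := by
      rw [Polynomial.modByMonic_eq_self_iff hw, Polynomial.degree_eq_natDegree hw.ne_zero, hm]
      exact Polynomial.degree_sum_fin_lt v
    have hv : Φ (∑ i : Fin m, C (v i) * X ^ (i : ℕ)) = v := by
      rw [hΦ]
      funext k
      rw [hw']
      simp [Polynomial.coeff_C_mul, Polynomial.coeff_X_pow,
        Fin.val_inj]
    rw [← hv]
    exact hmem2 _ (h𝔞 ▸ Submodule.mem_top)
  -- a root of a generator
  obtain ⟨d, hd⟩ := (IsPrincipalIdealRing.principal 𝔞).principal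
  have hdu : ¬ IsUnit d := by
    intro hu
    apply htop
    rw [hd]
    exact Ideal.span_singleton_eq_top.2 hu
  have hdeg : d.degree ≠ 0 := by
    intro h0
    exact hdu (Polynomial.isUnit_iff_degree_eq_zero.2 h0)
  obtain ⟨ζ, hζ⟩ := IsAlgClosed.exists_root d hdeg
  have hall : ∀ q ∈ 𝔞, q.eval ζ = 0 := by
    intro q hq
    rw [hd] at hq
    obtain ⟨c, rfl⟩ := Submodule.mem_span_singleton.1 hq
    rw [smul_eq_mul, Polynomial.eval_mul, hζ, mul_zero]
  exact ⟨ζ, hall _ (Submodule.subset_span (Or.inl rfl)),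
    fun j => hall _ (Submodule.subset_span (Or.inr ⟨j, rfl⟩))⟩

/-- The minors vanish in every domain where `w` and the `R j` vanish. -/
theorem map_det_eq_zero {A B : Type*} [CommRing A] [CommRing B] [IsDomain B] {J : Type*} {m : ℕ}
    (ψ : A[X] →+* B) (w : A[X]) (hw : w.Monic) (hm : w.natDegree = m) (hψ : ψ w = 0)
    (R : J → A[X]) (hR : ∀ j, ψ (R j) = 0) (σ : Fin m → J × Fin m) :
    ψ (C (Matrix.of fun a k => row w R (σ a) k).det) = 0 := by
  have hm0 : 0 < m := by
    rcases Nat.eq_zero_or_pos m with h0 | h0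
    · exfalso
      rw [h0] at hm
      have := (Polynomial.Monic.natDegree_eq_zero hw).1 hm
      rw [this, map_one] at hψ
      exact one_ne_zero hψ
    · exact h0
  have hw1 : w ≠ 1 := by
    rintro rfl
    rw [Polynomial.natDegree_one] at hm
    omega
  let g : A →+* B := ψ.comp C
  let D : Matrix (Fin m) (Fin m) A := Matrix.of fun a k => row w R (σ a) k
  have hdet : ψ (C D.det) = (D.map g).det := by
    exact g.map_det D
  by_contra hne
  change ψ (C D.det) ≠ 0 at hne
  rw [hdet] at hne
  let v : Fin m → B := fun k => ψ X ^ (k : ℕ)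
  have hv : (D.map g).mulVec v = 0 := by
    funext a
    show ∑ k, g (row w R (σ a) k) * (ψ X ^ (k : ℕ)) = 0
    set q : A[X] := (X ^ ((σ a).2 : ℕ) * R (σ a).1) %ₘ w with hq
    have h1 : ∑ k : Fin m, g (row w R (σ a) k) * (ψ X ^ (k : ℕ)) = ψ q := by
      have h2 : q = ∑ i : Fin m, C (q.coeff i) * X ^ (i : ℕ) := by
        have h3 : q.natDegree < m := by
          rw [← hm]
          exact Polynomial.natDegree_modByMonic_lt _ hw hw1
        rw [Fin.sum_univ_eq_sum_range (fun i => C (q.coeff i) * X ^ i) m]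
        exact Polynomial.as_sum_range_C_mul_X_pow' _ h3
      conv_rhs => rw [h2]
      rw [map_sum]
      refine Finset.sum_congr rfl fun k _ => ?_
      rw [map_mul, map_pow]
      rfl
    rw [h1]
    have h4 := Polynomial.modByMonic_add_div (X ^ ((σ a).2 : ℕ) * R (σ a).1) w
    have h5 := congrArg ψ h4
    rw [map_add, map_mul, hψ, zero_mul, add_zero, map_mul, hR, mul_zero] at h5
    exact h5
  have hv0 := Matrix.eq_zero_of_mulVec_eq_zero hne hv
  have := congrFun hv0 ⟨0, hm0⟩
  simp [v] at this

theorem exists_norm_like {A B : Type*} [CommRing A] [CommRing B] [IsDomain B] (g : A →+* B)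
    {x : B} (hx : x ≠ 0) (hint : g.IsIntegralElem x) :
    ∃ a, g a ≠ 0 ∧ ∃ q, g a = x * q := by
  obtain ⟨p, hp, hpx⟩ := hint
  have h1 : (p.map g.rangeRestrict).eval₂ g.range.subtype x = 0 := by
    rw [Polynomial.eval₂_map]
    exact hpx
  have h2 : p.map g.rangeRestrict ≠ 0 := (hp.map _).ne_zero
  obtain ⟨i, hi, hmem⟩ := Ideal.exists_coeff_ne_zero_mem_comap_of_root_mem
    (I := Ideal.span {x}) hx (Ideal.subset_span rfl) h2 h1
  rw [Polynomial.coeff_map] at hi hmem
  refine ⟨p.coeff i, ?_, ?_⟩
  · intro h0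
    apply hi
    exact Subtype.ext h0
  · obtain ⟨q, hq⟩ := Ideal.mem_span_singleton'.1 (Ideal.mem_comap.1 hmem)
    exact ⟨q, by rw [mul_comm, hq]; rfl⟩

end Groth.Agent.Gaga.H178.LinAlg
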