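import Groth.Agent.Gaga.H178.WDProof
import Groth.Agent.Gaga.H178.LinAlg

/-!
# Rückert's Nullstellensatz for germs of holomorphic functions
-/

set_option autoImplicit false

open Filter Topology Metric Set
open Polynomial (C X)

namespace Groth.Agent.Gaga.H178.Nullst

open Groth.Agent.Gaga.H178.HolRing
open Groth.Agent.Gaga.H178.LinAlg

/-- Points near `0` on the zero set of (finitely many elements of) a prime, off `f = 0`. -/
def PTAt (n : ℕ) (P : Ideal (holRing n)) : Prop :=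
  ∀ f ∉ P, ∀ S : Finset (holRing n), (∀ p ∈ S, p ∈ P) → ∀ W ∈ 𝓝 (0 : Fin n → ℂ),
    ∃ z ∈ W, (∀ p ∈ S, p.1 z = 0) ∧ f.1 z ≠ 0

def PT (n : ℕ) : Prop := ∀ P : Ideal (holRing n), P.IsPrime → nul n ≤ P → PTAt n P

theorem ptAt_of_le {n : ℕ} {P : Ideal (holRing n)} (h1 : nul n ≤ P) (h : P ≤ nul n) :
    PTAt n P := by
  intro f hf S hS W hW
  have hf' : ¬ ∀ᶠ z in 𝓝 (0 : Fin n → ℂ), f.1 z = 0 := fun h' => hf (h1 h')
  rw [not_eventually] at hf'
  have hSe : ∀ᶠ z in 𝓝 (0 : Fin n → ℂ), ∀ p ∈ S, p.1 z = 0 :=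
    (eventually_all_finset S).2 fun p hp => h (hS p hp)
  obtain ⟨z, hz1, hz2, hz3⟩ := (hf'.and_eventually (hSe.and hW)).exists
  exact ⟨z, hz3, hz2, hz1⟩

/-- A monic polynomial whose lower coefficients are small has small roots. -/
theorem root_small {m : ℕ} {ε : ℝ} (hε : 0 < ε) (hε1 : ε ≤ 1) :
    ∃ δ > 0, ∀ (r : Fin m → ℂ) (ζ : ℂ), (∀ i, ‖r i‖ < δ) → ζ ^ m = ∑ i, r i * ζ ^ (i : ℕ) →
      ‖ζ‖ < ε := by
  refine ⟨ε ^ m / (m + 1), by positivity, fun r ζ hr hζ => ?_⟩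
  by_contra hcon
  push Not at hcon
  have hζ0 : 0 < ‖ζ‖ := lt_of_lt_of_le hε hcon
  have h1 : ‖ζ‖ ^ m ≤ ∑ i : Fin m, ‖r i‖ * ‖ζ‖ ^ (i : ℕ) := by
    rw [← norm_pow, hζ]
    refine (norm_sum_le _ _).trans (le_of_eq ?_)
    refine Finset.sum_congr rfl fun i _ => ?_
    rw [norm_mul, norm_pow]
  have h2 : ∀ i : Fin m, ‖r i‖ * ‖ζ‖ ^ (i : ℕ) ≤ ‖ζ‖ ^ m / (m + 1) := by
    intro i
    have h3 : ε ^ m * ‖ζ‖ ^ (i : ℕ) ≤ ‖ζ‖ ^ m := by
      have h4 : ε ^ m ≤ ε ^ (m - i) := pow_le_pow_of_le_one hε.le hε1 (Nat.sub_le _ _)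
      have h5 : ε ^ (m - i) ≤ ‖ζ‖ ^ (m - i) := pow_le_pow_left₀ hε.le hcon _
      calc ε ^ m * ‖ζ‖ ^ (i : ℕ) ≤ ‖ζ‖ ^ (m - i) * ‖ζ‖ ^ (i : ℕ) := by
            gcongr
            exact h4.trans h5
        _ = ‖ζ‖ ^ m := by
            rw [← pow_add]
            congr 1
            omega
    calc ‖r i‖ * ‖ζ‖ ^ (i : ℕ) ≤ (ε ^ m / (m + 1)) * ‖ζ‖ ^ (i : ℕ) := by
          gcongr
          exact (hr i).le
      _ = (ε ^ m * ‖ζ‖ ^ (i : ℕ)) / (m + 1) := by ring
      _ ≤ ‖ζ‖ ^ m / (m + 1) := by gcongr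
  have h6 : ‖ζ‖ ^ m ≤ m * (‖ζ‖ ^ m / (m + 1)) := by
    refine h1.trans ((Finset.sum_le_sum fun i _ => h2 i).trans (le_of_eq ?_))
    rw [Finset.sum_const, Finset.card_univ, Fintype.card_fin, nsmul_eq_mul]
  have h7 : (m : ℝ) * (‖ζ‖ ^ m / (m + 1)) < ‖ζ‖ ^ m := by
    have h8 : 0 < ‖ζ‖ ^ m := by positivity
    rw [mul_div_assoc', div_lt_iff₀ (by positivity)]
    nlinarith
  exact absurd h6 (not_le.2 h7)

/-- A polynomial of degree `< m` which is `t ^ m * h t` near `0`, `h` continuous, is zero. -/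
theorem coeff_zero_of {m : ℕ} (a : Fin m → ℂ) (h : ℂ → ℂ) (hh : ContinuousAt h 0)
    (heq : ∀ᶠ t in 𝓝 (0 : ℂ), ∑ i, a i * t ^ (i : ℕ) = t ^ m * h t) : ∀ i, a i = 0 := by
  by_contra hcon
  push Not at hcon
  set P : Polynomial ℂ := ∑ i : Fin m, C (a i) * X ^ (i : ℕ) with hP
  have hco : ∀ i : Fin m, P.coeff i = a i := by
    intro i
    rw [hP]
    simp [Polynomial.coeff_X_pow, Fin.val_inj]
  have hP0 : P ≠ 0 := by
    intro h0
    obtain ⟨i, hi⟩ := hcon
    apply hi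
    rw [← hco i, h0, Polynomial.coeff_zero]
  have hdeg : P.degree < m := Polynomial.degree_sum_fin_lt a
  obtain ⟨R, hR, hnd⟩ := Polynomial.exists_eq_pow_rootMultiplicity_mul_and_not_dvd P hP0 0
  set k := P.rootMultiplicity 0 with hk
  rw [Polynomial.C_0, sub_zero] at hR hnd
  have hkm : k < m := by
    have h1 : k ≤ P.natDegree := by
      have h0 : P ≠ 0 := hP0
      have h2 : R ≠ 0 := by
        rintro rfl
        exact hnd (dvd_zero _)
      have h3 : P.natDegree = k + R.natDegree := by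
        conv_lhs => rw [hR]
        rw [Polynomial.natDegree_mul (pow_ne_zero _ Polynomial.X_ne_zero) h2,
          Polynomial.natDegree_X_pow]
      omega
    have h2 : P.natDegree < m := (Polynomial.natDegree_lt_iff_degree_lt hP0).2 hdeg
    omega
  have hR0 : R.eval 0 ≠ 0 := by
    intro h0
    apply hnd
    exact Polynomial.X_dvd_iff.2 (by rwa [← Polynomial.coeff_zero_eq_eval_zero] at h0)
  have hev : ∀ t : ℂ, ∑ i, a i * t ^ (i : ℕ) = t ^ k * R.eval t := by
    intro t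
    have h1 : P.eval t = ∑ i, a i * t ^ (i : ℕ) := by
      rw [hP]
      simp [Polynomial.eval_finsetSum]
    rw [← h1]
    conv_lhs => rw [hR]
    simp
  have h3 : ∀ᶠ t in 𝓝[≠] (0 : ℂ), R.eval t = t ^ (m - k) * h t := by
    rw [eventually_nhdsWithin_iff]
    filter_upwards [heq] with t ht hne
    rw [hev t] at ht
    have hne' : t ^ k ≠ 0 := pow_ne_zero _ hne
    have : t ^ m = t ^ k * t ^ (m - k) := by rw [← pow_add, Nat.add_sub_cancel' hkm.le]
    rw [this, mul_assoc] at ht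
    exact mul_left_cancel₀ hne' ht
  have h4 : Tendsto (fun t => R.eval t) (𝓝[≠] (0 : ℂ)) (𝓝 (R.eval 0)) :=
    (R.continuous.tendsto 0).mono_left nhdsWithin_le_nhds
  have h5 : Tendsto (fun t => t ^ (m - k) * h t) (𝓝[≠] (0 : ℂ)) (𝓝 ((0 : ℂ) ^ (m - k) * h 0)) := by
    refine Tendsto.mono_left ?_ nhdsWithin_le_nhds
    exact ((continuous_pow (m - k)).tendsto 0).mul hh
  have h6 := tendsto_nhds_unique (h4.congr' h3) h5
  rw [zero_pow (by omega), zero_mul] at h6
  exact hR0 h6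

/-- The distinguished polynomial `X ^ m - ∑ r i * X ^ i`. -/
noncomputable def wpoly {n m : ℕ} (r : Fin m → holRing n) : Polynomial (holRing n) :=
  X ^ m - ∑ i : Fin m, C (r i) * X ^ (i : ℕ)

theorem wpoly_monic {n m : ℕ} (r : Fin m → holRing n) : (wpoly r).Monic := by
  unfold wpoly
  exact Polynomial.monic_X_pow_sub (Polynomial.degree_sum_fin_lt r)

theorem wpoly_natDegree {n m : ℕ} (r : Fin m → holRing n) : (wpoly r).natDegree = m := by
  have h : (wpoly r).degree = m := by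
    unfold wpoly
    rw [Polynomial.degree_sub_eq_left_of_degree_lt, Polynomial.degree_X_pow]
    rw [Polynomial.degree_X_pow]
    exact Polynomial.degree_sum_fin_lt r
  exact Polynomial.natDegree_eq_of_degree_eq_some h

theorem φ_sum {n m : ℕ} (r : Fin m → holRing n) (z : Fin (n + 1) → ℂ) :
    (φ n (∑ i : Fin m, C (r i) * X ^ (i : ℕ))).1 z = ∑ i, (r i).1 (Fin.tail z) * z 0 ^ (i : ℕ) := by
  rw [φ_apply]
  simp [Polynomial.map_sum, Polynomial.eval_finsetSum]

theorem φ_wpoly {n m : ℕ} (r : Fin m → holRing n) (z : Fin (n + 1) → ℂ) :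
    (φ n (wpoly r)).1 z = z 0 ^ m - ∑ i, (r i).1 (Fin.tail z) * z 0 ^ (i : ℕ) := by
  rw [φ_apply]
  unfold wpoly
  simp [Polynomial.map_sum, Polynomial.eval_finsetSum]

/-- Division by a distinguished polynomial, in the ring `holRing`. -/
theorem exists_div {n m : ℕ} (r : Fin m → holRing n) (hr0 : ∀ i, (r i).1 0 = 0)
    (F : holRing (n + 1)) : ∃ (Q : holRing (n + 1)) (s : Fin m → holRing n),
      F - (Q * φ n (wpoly r) + φ n (∑ i : Fin m, C (s i) * X ^ (i : ℕ))) ∈ nul (n + 1) := by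
  have hG : ∀ᶠ t in 𝓝 (0 : ℂ), (φ n (wpoly r)).1 (Fin.cons t 0) = t ^ m * (fun _ => (1 : ℂ)) t := by
    refine Eventually.of_forall fun t => ?_
    rw [φ_wpoly]
    simp only [Fin.cons_zero, Fin.tail_cons, mul_one]
    rw [Finset.sum_eq_zero, sub_zero]
    intro i _
    rw [hr0 i, zero_mul]
  obtain ⟨Q, hQ, s, hs, h⟩ := WDProof.wd n m (φ n (wpoly r)).1 (φ n (wpoly r)).2 (fun _ => 1)
    analyticAt_const one_ne_zero hG F.1 F.2
  refine ⟨⟨Q, hQ⟩, fun i => ⟨s i, hs i⟩, ?_⟩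
  rw [mem_nul]
  filter_upwards [h] with z hz
  show F.1 z - (Q z * (φ n (wpoly r)).1 z + (φ n (∑ i : Fin m, C (⟨s i, hs i⟩ : holRing n) *
    X ^ (i : ℕ))).1 z) = 0
  rw [φ_sum, hz]
  ring

/-- The regular case of the induction. -/
theorem pt_regular {n : ℕ} (hPT : PT n) (P : Ideal (holRing (n + 1))) (hP : P.IsPrime)
    (hnul : nul (n + 1) ≤ P) {m : ℕ} (G : holRing (n + 1)) (hG : G ∈ P) (u : ℂ → ℂ)
    (hu : AnalyticAt ℂ u 0) (hu0 : u 0 ≠ 0)
    (hGu : ∀ᶠ t in 𝓝 (0 : ℂ), G.1 (Fin.cons t 0) = t ^ m * u t) : PTAt (n + 1) P := by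
  classical
  intro f hf S hS W hW
  -- the distinguished polynomial
  obtain ⟨Q₀, hQ₀, r', hr', h₀⟩ := WDProof.wd n m G.1 G.2 u hu hu0 hGu
    (fun z => z 0 ^ m) (HolAt.of_differentiable (by fun_prop))
  let r : Fin m → holRing n := fun i => ⟨r' i, hr' i⟩
  have hcons : Tendsto (fun t : ℂ => (Fin.cons t (0 : Fin n → ℂ) : Fin (n + 1) → ℂ)) (𝓝 0)
      (𝓝 0) := by
    have h1 : Continuous (fun t : ℂ => (Fin.cons t (0 : Fin n → ℂ) : Fin (n + 1) → ℂ)) := by
      refine continuous_pi fun i => ?_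
      refine Fin.cases ?_ (fun i => ?_) i
      · simp only [Fin.cons_zero]
        exact continuous_id
      · simp only [Fin.cons_succ]
        exact continuous_const
    have h2 := h1.tendsto 0
    rwa [WDProof.consMap_zero] at h2
  have hr0 : ∀ i, (r i).1 0 = 0 := by
    have h1 : ∀ᶠ t in 𝓝 (0 : ℂ), ∑ i, (r i).1 0 * t ^ (i : ℕ) =
        t ^ m * (1 - Q₀ (Fin.cons t 0) * u t) := by
      filter_upwards [hcons.eventually h₀, hGu] with t ht1 ht2
      simp only [Fin.cons_zero, Fin.tail_cons] at ht1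
      rw [ht2] at ht1
      show ∑ i, r' i 0 * t ^ (i : ℕ) = _
      linear_combination (-1 : ℂ) * ht1
    refine coeff_zero_of (fun i => (r i).1 0) (fun t => 1 - Q₀ (Fin.cons t 0) * u t) ?_ h1
    have h2 : ContinuousAt (fun t : ℂ => Q₀ (Fin.cons t 0)) 0 := by
      have h3 : ContinuousAt Q₀ (Fin.cons (0 : ℂ) (0 : Fin n → ℂ)) := by
        rw [WDProof.consMap_zero]
        exact hQ₀.continuousAt
      have h4 : ContinuousAt (fun t : ℂ => (Fin.cons t (0 : Fin n → ℂ) : Fin (n + 1) → ℂ)) 0 := by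
        show Tendsto (fun t : ℂ => (Fin.cons t (0 : Fin n → ℂ) : Fin (n + 1) → ℂ)) (𝓝 0)
          (𝓝 (Fin.cons (0 : ℂ) (0 : Fin n → ℂ)))
        rw [WDProof.consMap_zero]
        exact hcons
      exact ContinuousAt.comp (f := fun t : ℂ => (Fin.cons t (0 : Fin n → ℂ) :
        Fin (n + 1) → ℂ)) h3 h4
    exact continuousAt_const.sub (h2.mul hu.continuousAt)
  set w := wpoly r with hw
  have hwm : w.Monic := wpoly_monic r
  have hwd : w.natDegree = m := wpoly_natDegree r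
  have hwP : φ n w ∈ P := by
    have h1 : φ n w - (⟨Q₀, hQ₀⟩ : holRing (n + 1)) * G ∈ nul (n + 1) := by
      rw [mem_nul]
      filter_upwards [h₀] with z hz
      show (φ n w).1 z - Q₀ z * G.1 z = 0
      rw [hw, φ_wpoly]
      show z 0 ^ m - ∑ i, r' i (Fin.tail z) * z 0 ^ (i : ℕ) - Q₀ z * G.1 z = 0
      linear_combination hz
    have h2 := P.add_mem (hnul h1) (P.mul_mem_left (⟨Q₀, hQ₀⟩ : holRing (n + 1)) hG)
    simpa using h2
  -- the domain `B`
  let B := holRing (n + 1) ⧸ P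
  have : IsDomain B := Ideal.Quotient.isDomain P
  let mk : holRing (n + 1) →+* B := Ideal.Quotient.mk P
  let ψ : Polynomial (holRing n) →+* B := mk.comp (φ n)
  let g : holRing n →+* B := mk.comp (ι n)
  -- `B` is generated by the powers of `X0`
  have hgen : ∀ F : holRing (n + 1), ∃ s : Fin m → holRing n,
      mk F = mk (φ n (∑ i : Fin m, C (s i) * X ^ (i : ℕ))) := by
    intro F
    obtain ⟨Q, s, h⟩ := exists_div r hr0 F
    refine ⟨s, ?_⟩
    have h1 := hnul h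
    rw [← Ideal.Quotient.eq_zero_iff_mem, map_sub, map_add, map_mul,
      Ideal.Quotient.eq_zero_iff_mem.2 hwP, mul_zero, zero_add] at h1
    exact sub_eq_zero.1 h1
  have hint : ∀ x : B, g.IsIntegralElem x := by
    let _ : Algebra (holRing n) B := g.toAlgebra
    have hfin : Module.Finite (holRing n) B := by
      let Λ : (Fin m → holRing n) →ₗ[holRing n] B :=
        { toFun := fun s => ∑ i, g (s i) * mk (X0 n) ^ (i : ℕ)
          map_add' := by
            intro s t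
            simp [add_mul, Finset.sum_add_distrib]
          map_smul' := by
            intro c s
            show ∑ i, g (c * s i) * _ = g c * ∑ i, g (s i) * _
            rw [Finset.mul_sum]
            refine Finset.sum_congr rfl fun i _ => ?_
            rw [map_mul, mul_assoc] }
      refine Module.Finite.of_surjective Λ ?_
      intro x
      obtain ⟨F, rfl⟩ := Ideal.Quotient.mk_surjective x
      obtain ⟨s, hs⟩ := hgen F
      refine ⟨s, ?_⟩
      show ∑ i, g (s i) * mk (X0 n) ^ (i : ℕ) = mk F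
      rw [hs, map_sum, map_sum]
      refine Finset.sum_congr rfl fun i _ => ?_
      rw [map_mul, map_mul, map_pow, map_pow, φ_C, φ_X]
      rfl
    intro x
    exact Algebra.IsIntegral.isIntegral (R := holRing n) x
  -- a nonzero element downstairs
  have hfne : mk f ≠ 0 := fun h0 => hf (Ideal.Quotient.eq_zero_iff_mem.1 h0)
  obtain ⟨a, ha, q', hq'⟩ := exists_norm_like g hfne (hint (mk f))
  obtain ⟨q, rfl⟩ := Ideal.Quotient.mk_surjective q'
  let p₀ : holRing (n + 1) := ι n a - f * q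
  have hp₀ : p₀ ∈ P := by
    rw [← Ideal.Quotient.eq_zero_iff_mem]
    show mk (ι n a - f * q) = 0
    rw [map_sub, map_mul, sub_eq_zero]
    exact hq'
  -- the finite set of equations
  let S' : Finset (holRing (n + 1)) := insert p₀ S
  have hS' : ∀ p ∈ S', p ∈ P := by
    intro p hp
    rcases Finset.mem_insert.1 hp with rfl | hp
    · exact hp₀
    · exact hS p hp
  choose Qd sd hdiv using fun p : S' => exists_div r hr0 p.1
  let R : S' → Polynomial (holRing n) := fun p => ∑ i : Fin m, C (sd p i) * X ^ (i : ℕ)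
  have hRP : ∀ p, ψ (R p) = 0 := by
    intro p
    have h1 := hnul (hdiv p)
    rw [← Ideal.Quotient.eq_zero_iff_mem, map_sub, map_add, map_mul,
      Ideal.Quotient.eq_zero_iff_mem.2 hwP, mul_zero, zero_add,
      Ideal.Quotient.eq_zero_iff_mem.2 (hS' p.1 p.2), zero_sub, neg_eq_zero] at h1
    exact h1
  have hψw : ψ w = 0 := Ideal.Quotient.eq_zero_iff_mem.2 hwP
  -- the minors
  let P' : Ideal (holRing n) := P.comap (ι n)
  have hP' : P'.IsPrime := Ideal.comap_isPrime (ι n) P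
  have hnul' : nul n ≤ P' := fun x hx => hnul (ι_nul hx)
  let D : (Fin m → S' × Fin m) → holRing n := fun σ =>
    (Matrix.of fun a k => row w R (σ a) k).det
  have hD : ∀ σ, D σ ∈ P' := by
    intro σ
    have h1 := map_det_eq_zero ψ w hwm hwd hψw R hRP σ
    rw [Ideal.mem_comap, ← φ_C]
    exact Ideal.Quotient.eq_zero_iff_mem.1 h1
  have haP : a ∉ P' := by
    intro h0
    exact ha (Ideal.Quotient.eq_zero_iff_mem.2 (Ideal.mem_comap.1 h0))
  -- the neighbourhoods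
  have hWW : ∀ᶠ z in 𝓝 (0 : Fin (n + 1) → ℂ), z ∈ W ∧ ∀ p : S',
      (p.1 - (Qd p * φ n w + φ n (R p))).1 z = 0 := by
    refine (eventually_mem_set.2 hW).and ?_
    rw [eventually_all]
    exact fun p => hdiv p
  obtain ⟨ε₀, hε₀, hball⟩ := Metric.mem_nhds_iff.1 hWW
  obtain ⟨ε, hε, hε1, hε2⟩ : ∃ ε > 0, ε ≤ 1 ∧ ε < ε₀ :=
    ⟨min 1 (ε₀ / 2), by positivity, min_le_left _ _, by
      have := min_le_right 1 (ε₀ / 2)
      linarith⟩
  obtain ⟨δ, hδ, hroot⟩ := root_small (m := m) hε hε1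
  have hW' : ∀ᶠ z' in 𝓝 (0 : Fin n → ℂ), ‖z'‖ < ε ∧ ∀ i, ‖(r i).1 z'‖ < δ := by
    refine Eventually.and ?_ ?_
    · have h1 := Metric.ball_mem_nhds (0 : Fin n → ℂ) hε
      filter_upwards [h1] with z' hz'
      simpa using hz'
    · rw [eventually_all]
      intro i
      have h1 : ContinuousAt (fun z' => ‖(r i).1 z'‖) 0 := (HolAt.continuousAt (r i).2).norm
      have h2 : ‖(r i).1 0‖ < δ := by
        rw [hr0 i, norm_zero]
        exact hδ
      exact h1.eventually_lt continuousAt_const h2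
  -- the point downstairs
  obtain ⟨z', hz'W, hz'D, hz'a⟩ := hPT P' hP' hnul' a haP (Finset.univ.image D)
    (by
      intro p hp
      obtain ⟨σ, -, rfl⟩ := Finset.mem_image.1 hp
      exact hD σ) _ hW'
  obtain ⟨hz'ε, hz'δ⟩ : ‖z'‖ < ε ∧ ∀ i, ‖(r i).1 z'‖ < δ := hz'W
  have hdet0 : ∀ σ : Fin m → S' × Fin m,
      (Matrix.of fun a k => row (w.map (ev z')) (fun p => (R p).map (ev z')) (σ a) k).det = 0 := by
    intro σ
    have h1 : ev z' (D σ) = 0 := hz'D (D σ) (Finset.mem_image_of_mem D (Finset.mem_univ σ))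
    rw [RingHom.map_det] at h1
    rw [← h1]
    congr 1
    ext a k
    show _ = ev z' (row w R (σ a) k)
    rw [row_map hwm]
    rfl
  obtain ⟨ζ, hζw, hζR⟩ := exists_common_root (w.map (ev z')) (hwm.map _)
    (by rw [hwm.natDegree_map, hwd]) (fun p => (R p).map (ev z')) hdet0
  -- the point upstairs
  let z : Fin (n + 1) → ℂ := Fin.cons ζ z'
  have hz0 : z 0 = ζ := rfl
  have hzt : Fin.tail z = z' := Fin.tail_cons _ _
  have hφw : (φ n w).1 z = 0 := by
    rw [φ_apply, hzt, hz0]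
    exact hζw
  have hζε : ‖ζ‖ < ε := by
    refine hroot (fun i => (r i).1 z') ζ hz'δ ?_
    have h1 := hφw
    rw [hw, φ_wpoly, hzt, hz0, sub_eq_zero] at h1
    exact h1
  have hzball : z ∈ ball (0 : Fin (n + 1) → ℂ) ε₀ := by
    rw [mem_ball_zero_iff]
    refine lt_of_le_of_lt ?_ hε2
    rw [pi_norm_le_iff_of_nonneg hε.le]
    intro i
    refine Fin.cases ?_ (fun i => ?_) i
    · exact hζε.le
    · show ‖z' i‖ ≤ ε
      exact (norm_le_pi_norm z' i).trans hz'ε.le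
  obtain ⟨hzW, hzS⟩ := hball hzball
  have hS0 : ∀ p ∈ S', p.1 z = 0 := by
    intro p hp
    have h1 : p.1 z - ((Qd ⟨p, hp⟩).1 z * (φ n w).1 z + (φ n (R ⟨p, hp⟩)).1 z) = 0 :=
      hzS ⟨p, hp⟩
    have h2 : (φ n (R ⟨p, hp⟩)).1 z = 0 := by
      rw [φ_apply, hzt, hz0]
      exact hζR ⟨p, hp⟩
    rw [hφw, h2, mul_zero, add_zero, sub_zero] at h1
    exact h1
  refine ⟨z, hzW, fun p hp => hS0 p (Finset.mem_insert_of_mem hp), ?_⟩
  have h1 : (ι n a).1 z - f.1 z * q.1 z = 0 := hS0 p₀ (Finset.mem_insert_self _ _)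
  intro h2
  rw [h2, zero_mul, sub_zero, ι_apply, hzt] at h1
  exact hz'a h1

end Groth.Agent.Gaga.H178.Nullst
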