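import Groth.Agent.Gaga.H178.Nullst
import Mathlib.Analysis.Analytic.Uniqueness
import Mathlib.Analysis.LocallyConvex.SeparatingDual

/-!
# Rückert's Nullstellensatz, final form
-/

set_option autoImplicit false

open Filter Topology Metric Set

namespace Groth.Agent.Gaga.H178.Rueckert

open Groth.Agent.Gaga.H178.HolRing
open Groth.Agent.Gaga.H178.Nullst

/-- Composition with a linear automorphism. -/
noncomputable def cL {n : ℕ} (L : (Fin n → ℂ) ≃L[ℂ] (Fin n → ℂ)) : holRing n →+* holRing n where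
  toFun f := ⟨fun z => f.1 (L z), HolAt.comp (φ := L) (b := 0)
    (by rw [map_zero]; exact f.2) L.differentiable⟩
  map_one' := rfl
  map_mul' _ _ := rfl
  map_zero' := rfl
  map_add' _ _ := rfl

@[simp] theorem cL_apply {n : ℕ} (L : (Fin n → ℂ) ≃L[ℂ] (Fin n → ℂ)) (f : holRing n)
    (z : Fin n → ℂ) : (cL L f).1 z = f.1 (L z) := rfl

theorem tendsto_L {n : ℕ} (L : (Fin n → ℂ) ≃L[ℂ] (Fin n → ℂ)) :
    Tendsto L (𝓝 0) (𝓝 0) := by
  have := L.continuous.tendsto 0
  rwa [map_zero] at this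

theorem ptAt_of_comap {n : ℕ} (P : Ideal (holRing n)) (L : (Fin n → ℂ) ≃L[ℂ] (Fin n → ℂ))
    (h : PTAt n (P.comap (cL L.symm))) : PTAt n P := by
  classical
  intro f hf S hS W hW
  have hsymm : ∀ f : holRing n, cL L.symm (cL L f) = f := by
    intro f
    apply Subtype.ext
    funext z
    simp
  obtain ⟨z, hzW, hzS, hzf⟩ := h (cL L f) (by rwa [Ideal.mem_comap, hsymm])
    (S.image (cL L)) (by
      intro p hp
      obtain ⟨s, hs, rfl⟩ := Finset.mem_image.1 hp
      rw [Ideal.mem_comap, hsymm]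
      exact hS s hs) (L ⁻¹' W) (tendsto_L L hW)
  exact ⟨L z, hzW, fun p hp => hzS (cL L p) (Finset.mem_image_of_mem _ hp), hzf⟩

theorem cons_eq_smul (n : ℕ) (t : ℂ) : (Fin.cons t (0 : Fin n → ℂ) : Fin (n + 1) → ℂ) =
    t • (Fin.cons 1 (0 : Fin n → ℂ) : Fin (n + 1) → ℂ) := by
  funext i
  refine Fin.cases ?_ (fun i => ?_) i
  · simp
  · simp

theorem exists_regular {n : ℕ} (G : holRing (n + 1)) (hG : G ∉ nul (n + 1)) :
    ∃ L : (Fin (n + 1) → ℂ) ≃L[ℂ] (Fin (n + 1) → ℂ),
      ¬ ∀ᶠ t in 𝓝 (0 : ℂ), G.1 (L (Fin.cons t 0)) = 0 := by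
  by_cases hG0 : G.1 0 = 0
  · obtain ⟨R, hR, hball⟩ := Metric.mem_nhds_iff.1 (show ∀ᶠ z in 𝓝 (0 : Fin (n + 1) → ℂ),
      DifferentiableAt ℂ G.1 z from G.2)
    have hfr : ∃ᶠ z in 𝓝 (0 : Fin (n + 1) → ℂ), G.1 z ≠ 0 := by
      rw [← not_eventually]
      exact hG
    obtain ⟨v, hv, hvR⟩ := (hfr.and_eventually (Metric.ball_mem_nhds 0 hR)).exists
    have hv0 : v ≠ 0 := by
      rintro rfl
      exact hv hG0
    have he0 : (Fin.cons 1 (0 : Fin n → ℂ) : Fin (n + 1) → ℂ) ≠ 0 := by
      intro h0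
      have := congrFun h0 0
      simp at this
    obtain ⟨L, hL⟩ := SeparatingDual.exists_continuousLinearEquiv_apply_eq (R := ℂ) he0 hv0
    refine ⟨L, ?_⟩
    intro hev
    have hLt : ∀ t : ℂ, L (Fin.cons t 0) = t • v := by
      intro t
      rw [cons_eq_smul, map_smul, hL]
    have hvR' : ‖v‖ < R := by simpa using hvR
    have hvpos : 0 < ‖v‖ := norm_pos_iff.2 hv0
    have hdiff : DifferentiableOn ℂ (fun t : ℂ => G.1 (t • v)) (ball 0 (R / ‖v‖)) := by
      intro t ht
      have h1 : t • v ∈ ball (0 : Fin (n + 1) → ℂ) R := by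
        rw [mem_ball_zero_iff, norm_smul]
        rw [mem_ball_zero_iff, lt_div_iff₀ hvpos] at ht
        exact ht
      have h2 : DifferentiableAt ℂ G.1 (t • v) := hball h1
      exact (h2.comp t (by fun_prop)).differentiableWithinAt
    have han := hdiff.analyticOnNhd isOpen_ball
    have hz : (fun t : ℂ => G.1 (t • v)) =ᶠ[𝓝 0] 0 := by
      filter_upwards [hev] with t ht
      rw [hLt t] at ht
      exact ht
    have h3 := han.eqOn_zero_of_preconnected_of_eventuallyEq_zero
      (convex_ball (0 : ℂ) (R / ‖v‖)).isPreconnected (mem_ball_self (by positivity)) hz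
    have h4 : (1 : ℂ) ∈ ball (0 : ℂ) (R / ‖v‖) := by
      rw [mem_ball_zero_iff, norm_one, lt_div_iff₀ hvpos, one_mul]
      exact hvR'
    have h5 := h3 h4
    simp only [one_smul, Pi.zero_apply] at h5
    exact hv h5
  · refine ⟨ContinuousLinearEquiv.refl ℂ _, ?_⟩
    intro hev
    have := hev.self_of_nhds
    simp only [ContinuousLinearEquiv.refl_apply] at this
    rw [WDProof.consMap_zero] at this
    exact hG0 this

/-- Points near `0` on the zero set of a prime. -/
theorem pt (n : ℕ) : PT n := by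
  induction n with
  | zero =>
    intro P hP hnul
    refine ptAt_of_le hnul ?_
    intro f hf
    by_contra hne
    -- `f` is a nonzero constant
    have h0 : ∀ z : Fin 0 → ℂ, z = 0 := fun z => Subsingleton.elim _ _
    have hf0 : f.1 0 ≠ 0 := by
      intro h
      apply hne
      rw [mem_nul]
      exact Eventually.of_forall fun z => by rw [h0 z]; exact h
    apply hP.ne_top
    rw [Ideal.eq_top_iff_one]
    have h1 : (⟨fun _ => (f.1 0)⁻¹, HolAt.const _⟩ : holRing 0) * f = 1 := by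
      apply Subtype.ext
      funext z
      show (f.1 0)⁻¹ * f.1 z = 1
      rw [h0 z, inv_mul_cancel₀ hf0]
    rw [← h1]
    exact P.mul_mem_left _ hf
  | succ n ih =>
    intro P hP hnul
    by_cases hle : P ≤ nul (n + 1)
    · exact ptAt_of_le hnul hle
    · obtain ⟨G, hGP, hG⟩ := SetLike.not_le_iff_exists.1 hle
      obtain ⟨L, hL⟩ := exists_regular G hG
      apply ptAt_of_comap P L
      have hP1 : (P.comap (cL L.symm)).IsPrime := Ideal.comap_isPrime _ P
      have hnul1 : nul (n + 1) ≤ P.comap (cL L.symm) := by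
        intro x hx
        rw [Ideal.mem_comap]
        apply hnul
        exact (tendsto_L L.symm).eventually hx
      have hG1 : cL L G ∈ P.comap (cL L.symm) := by
        rw [Ideal.mem_comap]
        have : cL L.symm (cL L G) = G := by
          apply Subtype.ext
          funext z
          simp
        rwa [this]
      have han : AnalyticAt ℂ (fun t : ℂ => G.1 (L (Fin.cons t 0))) 0 := by
        have h1 : HolAt (fun t : ℂ => G.1 (L (Fin.cons t 0))) 0 := by
          have h2 : HolAt G.1 ((fun t : ℂ => L (Fin.cons t (0 : Fin n → ℂ))) 0) := by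
            show HolAt G.1 (L (Fin.cons 0 (0 : Fin n → ℂ)))
            rw [WDProof.consMap_zero, map_zero]
            exact G.2
          refine HolAt.comp h2 ?_
          have h3 : (fun t : ℂ => L (Fin.cons t (0 : Fin n → ℂ))) =
              fun t : ℂ => L (t • (Fin.cons 1 (0 : Fin n → ℂ) : Fin (n + 1) → ℂ)) := by
            funext t
            rw [← cons_eq_smul]
          rw [h3]
          fun_prop
        obtain ⟨s, hs, hso, h0s⟩ := _root_.eventually_nhds_iff.1 h1
        exact DifferentiableOn.analyticAt (fun t ht => (hs t ht).differentiableWithinAt)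
          (hso.mem_nhds h0s)
      obtain ⟨m, u, hu, hu0, hGu⟩ := han.exists_eventuallyEq_pow_smul_nonzero_iff.2 hL
      refine pt_regular ih _ hP1 hnul1 (cL L G) hG1 u hu hu0 (m := m) ?_
      filter_upwards [hGu] with t ht
      rw [sub_zero, smul_eq_mul] at ht
      exact ht

/-- **Rückert's Nullstellensatz**, at the origin, `HolAt` form. -/
theorem nullstellensatz_zero {n : ℕ} {ι : Type*} [Fintype ι] (g : ι → holRing n) (f : holRing n)
    (hfg : ∀ᶠ z in 𝓝 (0 : Fin n → ℂ), (∀ i, (g i).1 z = 0) → f.1 z = 0) :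
    ∃ (k : ℕ) (h : ι → holRing n),
      ∀ᶠ z in 𝓝 (0 : Fin n → ℂ), f.1 z ^ k = ∑ i, (h i).1 z * (g i).1 z := by
  classical
  set I : Ideal (holRing n) := nul n ⊔ Ideal.span (Set.range g) with hI
  have hrad : f ∈ I.radical := by
    by_contra hcon
    rw [Ideal.radical_eq_sInf, Ideal.mem_sInf] at hcon
    push Not at hcon
    obtain ⟨P, ⟨hIP, hP⟩, hfP⟩ := hcon
    obtain ⟨z, hz, hzg, hzf⟩ := pt n P hP (le_sup_left.trans hIP) f hfP (Finset.univ.image g)
      (by
        intro p hp
        obtain ⟨i, -, rfl⟩ := Finset.mem_image.1 hp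
        exact hIP (Ideal.mem_sup_right (Ideal.subset_span ⟨i, rfl⟩))) _ hfg
    exact hzf (hz fun i => hzg (g i) (Finset.mem_image_of_mem g (Finset.mem_univ i)))
  obtain ⟨k, hk⟩ := hrad
  obtain ⟨x, hx, y, hy, hxy⟩ := Submodule.mem_sup.1 hk
  obtain ⟨h, hh⟩ := (Submodule.mem_span_range_iff_exists_fun (holRing n)).1 hy
  refine ⟨k, h, ?_⟩
  filter_upwards [hx] with z hz
  have h1 : ev z (f ^ k) = ∑ i, ev z (h i) * ev z (g i) := by
    rw [← hxy, ← hh, map_add, map_sum]
    simp only [smul_eq_mul, map_mul]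
    rw [ev_apply, hz, zero_add]
  simpa using h1

/-- **Rückert's Nullstellensatz**: if `f` vanishes on the common zeros of the `g i` in `U`, then
near `a` some power of `f` is a holomorphic linear combination of the `g i`. -/
theorem nullstellensatz {n : ℕ} {ι : Type*} [Fintype ι] {U : Set (Fin n → ℂ)} (hU : IsOpen U)
    {a : Fin n → ℂ} (ha : a ∈ U) (g : ι → (Fin n → ℂ) → ℂ) (f : (Fin n → ℂ) → ℂ)
    (hg : ∀ i, DifferentiableOn ℂ (g i) U) (hf : DifferentiableOn ℂ f U)
    (hfg : ∀ z ∈ U, (∀ i, g i z = 0) → f z = 0) :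
    ∃ (k : ℕ) (V : Set (Fin n → ℂ)), IsOpen V ∧ a ∈ V ∧ V ⊆ U ∧
      ∃ h : ι → (Fin n → ℂ) → ℂ, (∀ i, DifferentiableOn ℂ (h i) V) ∧
        ∀ z ∈ V, f z ^ k = ∑ i, h i z * g i z := by
  have htr : ∀ F : (Fin n → ℂ) → ℂ, DifferentiableOn ℂ F U →
      HolAt (fun z => F (z + a)) 0 := by
    intro F hF
    have h1 : HolAt F ((fun z : Fin n → ℂ => z + a) 0) := by
      show HolAt F (0 + a)
      rw [zero_add]
      exact HolAt.of_differentiableOn hF (hU.mem_nhds ha)
    exact HolAt.comp h1 (by fun_prop)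
  have hta : Tendsto (fun z : Fin n → ℂ => z + a) (𝓝 0) (𝓝 a) := by
    have : Continuous (fun z : Fin n → ℂ => z + a) := by fun_prop
    have h2 := this.tendsto 0
    rwa [zero_add] at h2
  have hta' : Tendsto (fun z : Fin n → ℂ => z - a) (𝓝 a) (𝓝 0) := by
    have : Continuous (fun z : Fin n → ℂ => z - a) := by fun_prop
    have h2 := this.tendsto a
    rwa [sub_self] at h2
  obtain ⟨k, h, hk⟩ := nullstellensatz_zero (fun i => (⟨_, htr _ (hg i)⟩ : holRing n))
    ⟨_, htr _ hf⟩ (by
      filter_upwards [hta.eventually (hU.mem_nhds ha)] with z hz hz2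
      exact hfg (z + a) hz hz2)
  have hall : ∀ᶠ z in 𝓝 a, z ∈ U ∧ (∀ i, DifferentiableAt ℂ (fun w => (h i).1 (w - a)) z) ∧
      f z ^ k = ∑ i, (h i).1 (z - a) * g i z := by
    have hUa : ∀ᶠ z in 𝓝 a, z ∈ U := hU.mem_nhds ha
    refine hUa.and (Eventually.and ?_ ?_)
    · rw [eventually_all]
      intro i
      filter_upwards [hta'.eventually (h i).2] with z hz
      exact hz.comp z (by fun_prop)
    · filter_upwards [hta'.eventually hk] with z hz
      simp only [sub_add_cancel] at hz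
      exact hz
  obtain ⟨V, hV, hVo, haV⟩ := _root_.eventually_nhds_iff.1 hall
  exact ⟨k, V, hVo, haV, fun z hz => (hV z hz).1, fun i z => (h i).1 (z - a),
    fun i z hz => ((hV z hz).2.1 i).differentiableWithinAt, fun z hz => (hV z hz).2.2⟩

end Groth.Agent.Gaga.H178.Rueckert
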