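import Groth.Agent.Gaga.H178.HolRing
import Groth.Agent.Gaga.H506.Weier

set_option autoImplicit false

open Filter Topology Metric Set

namespace Groth.Agent.Gaga.H178.WDProof

open Groth.Agent.Gaga.H178.HolRing
open Groth.Agent.Gaga.H506

theorem reg_of {E : Type*} [NormedAddCommGroup E] [NormedSpace ℂ E] {f : E × ℂ → ℂ} {ν : ℕ}
    {u : ℂ → ℂ} (hu : ContinuousAt u 0) (hu0 : u 0 ≠ 0)
    (h : ∀ᶠ t in 𝓝 (0 : ℂ), f (0, t) = t ^ ν * u t) : Weier.Reg f ν (0 : E) 0 := by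
  obtain ⟨r, hr, hb⟩ := Metric.mem_nhds_iff.1 h
  have key : ∀ j ≤ ν, Weier.slk 0 j f ((0 : E), (0 : ℂ)) = (0 : ℂ) ^ (ν - j) * u 0 := by
    intro j hj
    have h1 := Weier.slk_eq_of (z₀ := 0) (r := r) (W := {(0 : E)}) j (G := f)
      (q := fun p => p.2 ^ (ν - j) * u p.2) (a := fun _ _ => 0)
      (by
        intro w _
        exact ContinuousAt.mul (by fun_prop) hu)
      (by
        rintro ⟨w, t⟩ ⟨hw, ht⟩
        have hw0 : w = 0 := hw
        subst hw0
        have h2 : f (0, t) = t ^ ν * u t := hb ht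
        rw [h2]
        simp only [zero_mul, Finset.sum_const_zero, zero_add, sub_zero]
        rw [← mul_assoc, ← pow_add, Nat.add_sub_cancel' hj])
    exact h1 (0, 0) ⟨rfl, mem_ball_self hr⟩
  refine ⟨fun j hj => ?_, ?_⟩
  · rw [key j hj.le, zero_pow (by omega), zero_mul]
  · rw [key ν le_rfl, Nat.sub_self, pow_zero, one_mul]
    exact hu0

theorem differentiable_consMap (n : ℕ) :
    Differentiable ℂ (fun p : (Fin n → ℂ) × ℂ => (Fin.cons p.2 p.1 : Fin (n + 1) → ℂ)) := by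
  rw [differentiable_pi]
  intro i
  refine Fin.cases ?_ (fun i => ?_) i
  · simp only [Fin.cons_zero]
    fun_prop
  · simp only [Fin.cons_succ]
    fun_prop

theorem differentiable_unconsMap (n : ℕ) :
    Differentiable ℂ (fun z : Fin (n + 1) → ℂ => ((Fin.tail z : Fin n → ℂ), z 0)) :=
  (differentiable_tail n).prodMk (differentiable_apply (𝕜 := ℂ) 0)

theorem consMap_zero (n : ℕ) : (Fin.cons (0 : ℂ) (0 : Fin n → ℂ) : Fin (n + 1) → ℂ) = 0 := by
  funext i
  refine Fin.cases ?_ (fun i => ?_) i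
  · simp
  · simp

theorem wd (n : ℕ) : WD n := by
  intro m G hG u hu hu0 hGu F hF
  have hf : ∀ H : (Fin (n + 1) → ℂ) → ℂ, HolAt H 0 →
      Scv.HolAt (fun p : (Fin n → ℂ) × ℂ => H (Fin.cons p.2 p.1)) ((0 : Fin n → ℂ), (0 : ℂ)) := by
    intro H hH
    have hH' : HolAt H ((fun p : (Fin n → ℂ) × ℂ => (Fin.cons p.2 p.1 : Fin (n + 1) → ℂ))
        ((0 : Fin n → ℂ), (0 : ℂ))) := by
      show HolAt H (Fin.cons (0 : ℂ) (0 : Fin n → ℂ))
      rw [consMap_zero]
      exact hH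
    exact HolAt.comp hH' (differentiable_consMap n)
  obtain ⟨q, a, hq, ha, h⟩ := Weier.exists_div (hf G hG)
    (reg_of (ν := m) hu.continuousAt hu0 hGu) (hf F hF)
  refine ⟨fun z => q (Fin.tail z, z 0), ?_, fun i => a i, fun i => ha i, ?_⟩
  · have : HolAt q ((fun z : Fin (n + 1) → ℂ => ((Fin.tail z : Fin n → ℂ), z 0)) 0) := hq
    exact HolAt.comp this (differentiable_unconsMap n)
  · have h1 : Tendsto (fun z : Fin (n + 1) → ℂ => ((Fin.tail z : Fin n → ℂ), z 0)) (𝓝 0)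
        (𝓝 ((0 : Fin n → ℂ), (0 : ℂ))) := (differentiable_unconsMap n 0).continuousAt
    filter_upwards [h1.eventually h] with z hz
    simp only [Fin.cons_self_tail, sub_zero] at hz
    rw [hz, Finset.sum_range]

end Groth.Agent.Gaga.H178.WDProof
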